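import Cfsg.Agent.Lib.Helper98.A8.Pkgs

set_option autoImplicit false

namespace Cfsg.Agent.Lib.Helper76.A8

open Cfsg.Agent.Lib.Helper98.A8

theorem pkgAct : PkgAct := by
  intro K α _ _ φ X hinv hfaith
  have hiff : ∀ k ∈ K, ∀ x : α, φ k x ∈ X ↔ x ∈ X := by
    intro k hk x
    constructor
    · intro hx
      have h1 := hinv k⁻¹ (K.inv_mem hk) _ hx
      rw [map_inv] at h1
      simpa using h1
    · intro hx
      exact hinv k hk x hx
  let f : ↥K →* Equiv.Perm ↥X := MonoidHom.mk'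
    (fun k => Equiv.Perm.subtypePerm (φ (k : Equiv.Perm (Fin 8))) (p := fun x => x ∈ X)
      (fun x => hiff k.1 k.2 x))
    (by
      intro a b
      ext x
      simp only [map_mul, Subgroup.coe_mul]
      rfl)
  refine ⟨f, ?_⟩
  rw [injective_iff_map_eq_one]
  intro k hk
  apply Subtype.ext
  apply hfaith k.1 k.2
  intro x hx
  have h1 : f k ⟨x, hx⟩ = ⟨x, hx⟩ := by rw [hk]; rfl
  have h2 := congrArg Subtype.val h1
  simpa [f, Equiv.Perm.subtypePerm_apply] using h2

end Cfsg.Agent.Lib.Helper76.A8
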