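import Cfsg.Agent.Lib.Helper98.A8.Pkgs
import Cfsg.Agent.S0144

set_option autoImplicit false

namespace Cfsg.Agent.Lib.Helper76.A8

open Cfsg.Agent.Lib.Helper98.A8

theorem pkgBurn : PkgBurn := by
  intro H h5 h7
  have hdvd : Nat.card H ∣ 40320 := by
    have h1 := Subgroup.card_subgroup_dvd_card H
    have h2 : Nat.card (Equiv.Perm (Fin 8)) = 40320 := by
      rw [Nat.card_eq_fintype_card, Fintype.card_perm, Fintype.card_fin]
      rfl
    rw [h2] at h1; exact h1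
  have hc5 : Nat.Coprime (Nat.card H) 5 :=
    ((Nat.Prime.coprime_iff_not_dvd (by norm_num)).2 h5).symm
  have hc7 : Nat.Coprime (Nat.card H) 7 :=
    ((Nat.Prime.coprime_iff_not_dvd (by norm_num)).2 h7).symm
  have hc35 : Nat.Coprime (Nat.card H) 35 := by
    have := Nat.Coprime.mul_right hc5 hc7
    simpa using this
  have hdvd2 : Nat.card H ∣ 2 ^ 7 * 3 ^ 2 := by
    have h1 : Nat.card H ∣ (2 ^ 7 * 3 ^ 2) * 35 := by
      have : (2 ^ 7 * 3 ^ 2) * 35 = 40320 := by norm_num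
      rw [this]; exact hdvd
    exact Nat.Coprime.dvd_of_dvd_mul_right hc35 h1
  have hgcd : Nat.card H = Nat.gcd (Nat.card H) (2 ^ 7) * Nat.gcd (Nat.card H) (3 ^ 2) := by
    have h1 : Nat.Coprime (2 ^ 7) (3 ^ 2) := by norm_num
    rw [← Nat.Coprime.gcd_mul _ h1]
    exact (Nat.gcd_eq_left hdvd2).symm
  obtain ⟨a, _, ha⟩ := (Nat.dvd_prime_pow Nat.prime_two).1 (Nat.gcd_dvd_right (Nat.card H) (2 ^ 7))
  obtain ⟨b, _, hb⟩ := (Nat.dvd_prime_pow Nat.prime_three).1 (Nat.gcd_dvd_right (Nat.card H) (3 ^ 2))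
  rw [ha, hb] at hgcd
  exact Cfsg.Agent.S0144.result 2 3 a b Nat.prime_two Nat.prime_three hgcd

end Cfsg.Agent.Lib.Helper76.A8
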