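import Cfsg.Agent.Lib.Helper98.A8.Pkgs

set_option autoImplicit false

namespace Cfsg.Agent.Lib.Helper76.A8

open Cfsg.Agent.Lib.Helper98.A8

theorem pkgSimp : PkgSimp := by
  intro S hne hcrit
  obtain ⟨g, hgS, hg1⟩ := hne
  have hnt : Nontrivial ↥(Subgroup.closure S) := by
    refine ⟨⟨⟨g, Subgroup.subset_closure hgS⟩, 1, ?_⟩⟩
    intro h
    exact hg1 (congrArg Subtype.val h)
  refine { toNontrivial := hnt, eq_bot_or_eq_top_of_normal := ?_ }
  intro N hN
  by_cases hbot : N = ⊥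
  · exact Or.inl hbot
  · right
    obtain ⟨x, hx1⟩ := (Subgroup.ne_bot_iff_exists_ne_one).1 hbot
    have hx1' : (x : ↥(Subgroup.closure S)) ≠ 1 := by
      intro h
      exact hx1 (Subtype.ext h)
    have key := hcrit (N.map (Subgroup.closure S).subtype)
      ⟨x.1.1, Subgroup.mem_map.2 ⟨x.1, x.2, rfl⟩, x.1.2, fun h => hx1' (Subtype.ext h)⟩
      (by
        intro k hk n hn
        obtain ⟨n', hn', rfl⟩ := Subgroup.mem_map.1 hn
        refine Subgroup.mem_map.2 ⟨⟨k, hk⟩ * n' * ⟨k, hk⟩⁻¹, hN.conj_mem n' hn' ⟨k, hk⟩, rfl⟩)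
    have hle : Subgroup.closure S ≤ N.map (Subgroup.closure S).subtype :=
      (Subgroup.closure_le _).2 (fun g hg => key g hg)
    rw [eq_top_iff]
    intro y _
    obtain ⟨y', hy', hyy⟩ := Subgroup.mem_map.1 (hle y.2)
    have : y' = y := Subtype.ext hyy
    rw [← this]; exact hy'

end Cfsg.Agent.Lib.Helper76.A8
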